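import Cfsg.Agent.H591.TI.Kzero
import Cfsg.Agent.H991.KGV.CountA

/-!
# The main inequality
-/

set_option autoImplicit false
set_option linter.unusedSectionVars false

open Cfsg Finset
open scoped ComplexConjugate Pointwise

namespace Cfsg.Agent.H591.TI

open Cfsg.Agent.H644.KGV Cfsg.Agent.OddOrderCharacters.VChar Cfsg.Agent.Characters.Core
open Cfsg.Agent.Blocks.Local

universe u

/-- Lifting a weight from the quotient of a subgroup to the whole group. -/
noncomputable def up {G : Type u} [Group G] (N : Subgroup G) (D : Subgroup N) [D.Normal]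
    (w : N ⧸ D → ℂ) (g : G) : ℂ :=
  open Classical in if h : g ∈ N then w (QuotientGroup.mk' D ⟨g, h⟩) else 0

theorem up_coe {G : Type u} [Group G] (N : Subgroup G) (D : Subgroup N) [D.Normal]
    (w : N ⧸ D → ℂ) (n : N) : up N D w n = w (QuotientGroup.mk' D n) := by
  rw [up, dif_pos n.2]

theorem sum_up {G : Type u} [Group G] [Fintype G] (N : Subgroup G) [Fintype N] (D : Subgroup N)
    [D.Normal] [Fintype (N ⧸ D)] (w : N ⧸ D → ℂ) (χ : G → ℂ) :
    ∑ g : G, up N D w g * χ g = (Nat.card D : ℂ) * ∑ q : N ⧸ D, w q * defl D (fun n : N => χ n) q := by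
  rw [← sum_defl, sum_subgroup N]
  · exact Finset.sum_congr rfl fun n _ => by rw [up_coe]
  · intro g hg
    by_contra h
    apply hg
    rw [up, dif_neg h, zero_mul]

section Main

variable {G : Type u} [Group G] [Fintype G] {p : ℕ} [hp : Fact p.Prime] (N : Subgroup G) [Fintype N]
  (P : Subgroup N) [P.Normal] (hP : IsPGroup p P) (K' : Subgroup N)
  (hc : Subgroup.IsComplement' P K') (hK' : ¬ p ∣ Nat.card K')
  (hTI : ∀ (t : G) (u : N), u ∈ P → u ≠ 1 → (∃ v : N, v ∈ P ∧ t * u * t⁻¹ = v) → t ∈ N)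

include hP hc hK' hTI in
/-- The Parseval identity for the rows. -/
theorem row_parseval [Fintype (IrrCharacter G)] {z : N ⧸ der P}
    (hzA : z ∈ P.map (QuotientGroup.mk' (der P)))
    (hz : z ^ p = 1) (hz1 : z ≠ 1) {H : Subgroup (N ⧸ der P)} [Fintype H]
    (hH : H = K'.map (QuotientGroup.mk' (der P)) ⊓ Subgroup.centralizer ({z} : Set (N ⧸ der P)))
    (c : H → ℂ) (hcl : IsClassFunction H c) {a : ZMod p} (ha : a ≠ 0) :
    ∑ χ : IrrCharacter G, ((‖(Nat.card H : ℂ)⁻¹ * ∑ h : H, c h *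
      defl (der P) (fun n : N => (χ : G → ℂ) n) (z ^ a.val * h)‖ : ℂ)) ^ 2 =
      (Nat.card H : ℂ)⁻¹ * ∑ h : H, (Nat.card ↥(P.map (QuotientGroup.mk' (der P)) ⊓
        Subgroup.centralizer ({(h : N ⧸ der P)} : Set (N ⧸ der P))) : ℂ) * (‖c h‖ : ℂ) ^ 2 := by
  classical
  have := Fintype.ofFinite (N ⧸ der P)
  have hH0 : (Nat.card H : ℂ) ≠ 0 := by exact_mod_cast Nat.card_pos.ne'
  have hD0 : (Nat.card (der P) : ℂ) ≠ 0 := by exact_mod_cast Nat.card_pos.ne'
  have hAn : (P.map (QuotientGroup.mk' (der P))).Normal :=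
    Subgroup.Normal.map inferInstance _ (QuotientGroup.mk'_surjective (der P))
  have hcQ := complement_map (der_le P) hc
  have hKQ : ¬ p ∣ Nat.card (K'.map (QuotientGroup.mk' (der P))) :=
    fun h => hK' (h.trans (Subgroup.card_map_dvd _ _))
  have hza : z ^ a.val ∈ P.map (QuotientGroup.mk' (der P)) := Subgroup.pow_mem _ hzA _
  have hH' : H = K'.map (QuotientGroup.mk' (der P)) ⊓
      Subgroup.centralizer ({z ^ a.val} : Set (N ⧸ der P)) := by
    rw [centralizer_pow hz ha, hH]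
  have hHK : H ≤ K'.map (QuotientGroup.mk' (der P)) := hH ▸ inf_le_left
  have h1 := TS_wt (hP.map (QuotientGroup.mk' (der P))) (map_comm P) hKQ hcQ hza hH' c hcl
  -- transfer
  have h2 : TS (up N (der P) (wt (z ^ a.val) H c)) =
      (Nat.card (der P) : ℂ) ^ 2 * TS (wt (z ^ a.val) H c) := by
    rw [TS_subgroup N, ← TS_quotient]
    · congr 1
      funext n
      rw [up_coe]
    · intro g hg
      by_contra h
      apply hg
      rw [up, dif_neg h]
    · intro t g hg htg
      have hgN : g ∈ N := by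
        by_contra h
        apply hg
        rw [up, dif_neg h]
      have htgN : t * g * t⁻¹ ∈ N := by
        by_contra h
        apply htg
        rw [up, dif_neg h]
      obtain ⟨n, rfl⟩ : ∃ n : N, g = n := ⟨⟨g, hgN⟩, rfl⟩
      obtain ⟨n', hn'⟩ : ∃ n' : N, t * n * t⁻¹ = n' := ⟨⟨_, htgN⟩, rfl⟩
      rw [up_coe] at hg
      obtain ⟨h, hh⟩ := wt_ne_zero hg
      -- the power
      have hi : P.index = Nat.card K' := hc.symm.index_eq_card
      have e1 : n ^ P.index ∈ P := Subgroup.pow_index_mem P n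
      have e2 : n' ^ P.index ∈ P := Subgroup.pow_index_mem P n'
      refine hTI t (n ^ P.index) e1 ?_ ⟨n' ^ P.index, e2, ?_⟩
      · intro h3
        have h4 : (QuotientGroup.mk' (der P) n) ^ P.index = 1 := by rw [← map_pow, h3, map_one]
        have hzh : Commute (z ^ a.val) (h : N ⧸ der P) :=
          (Subgroup.mem_centralizer_singleton_iff.1 (hH' ▸ h.2 :
            (h : N ⧸ der P) ∈ K'.map (QuotientGroup.mk' (der P)) ⊓
              Subgroup.centralizer ({z ^ a.val} : Set (N ⧸ der P))).2).symm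
        rw [hh, hzh.mul_pow] at h4
        have h5 : (h : N ⧸ der P) ^ P.index = 1 := by
          obtain ⟨k, hk, hk'⟩ := hHK h.2
          rw [← hk', ← map_pow, hi]
          have : (⟨k, hk⟩ : K') ^ Nat.card K' = 1 := pow_card_eq_one'
          have h6 := congrArg Subtype.val this
          rw [Subgroup.coe_pow] at h6
          change k ^ Nat.card K' = 1 at h6
          rw [h6, map_one]
        rw [h5, mul_one] at h4
        -- `z ^ a` has order `p`
        have h6 : orderOf (z ^ a.val) ∣ p := orderOf_dvd_of_pow_eq_one (by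
          rw [← pow_mul, mul_comm, pow_mul, hz, one_pow])
        have h7 : orderOf (z ^ a.val) ∣ Nat.card K' := hi ▸ orderOf_dvd_of_pow_eq_one h4
        rcases (Nat.dvd_prime hp.out).1 h6 with h8 | h8
        · exact pow_val_ne_one hz hz1 ha (orderOf_eq_one_iff.1 h8)
        · exact hK' (h8 ▸ h7)
      · rw [Subgroup.coe_pow, Subgroup.coe_pow, ← hn', conj_pow]
  have h3 := sum_norm_sq (up N (der P) (wt (z ^ a.val) H c))
  rw [h2, h1] at h3
  have h4 : ∀ χ : IrrCharacter G, ∑ g : G, up N (der P) (wt (z ^ a.val) H c) g * (χ : G → ℂ) g =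
      ((Nat.card (der P) : ℂ) * (Nat.card H : ℂ)) * ((Nat.card H : ℂ)⁻¹ * ∑ h : H, c h *
        defl (der P) (fun n : N => (χ : G → ℂ) n) (z ^ a.val * h)) := by
    intro χ
    rw [sum_up, sum_wt, mul_assoc, mul_inv_cancel_left₀ hH0]
  have h5 : ∀ χ : IrrCharacter G,
      ((‖∑ g : G, up N (der P) (wt (z ^ a.val) H c) g * (χ : G → ℂ) g‖ : ℂ)) ^ 2 =
      ((Nat.card (der P) : ℂ) * (Nat.card H : ℂ)) ^ 2 * ((‖(Nat.card H : ℂ)⁻¹ * ∑ h : H, c h *
        defl (der P) (fun n : N => (χ : G → ℂ) n) (z ^ a.val * h)‖ : ℂ)) ^ 2 := by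
    intro χ
    rw [h4, norm_mul, norm_mul, Complex.norm_natCast, Complex.norm_natCast]
    push_cast
    ring
  rw [Finset.sum_congr rfl fun χ _ => h5 χ, ← Finset.mul_sum] at h3
  have h6 : ((Nat.card (der P) : ℂ) * (Nat.card H : ℂ)) ^ 2 ≠ 0 := pow_ne_zero 2 (mul_ne_zero hD0 hH0)
  apply mul_left_cancel₀ h6
  rw [h3]
  field_simp

/-- An element of order `p` in `P / P'`. -/
theorem exists_z {N : Type u} [Group N] [Finite N] (P : Subgroup N) [P.Normal] (hP : IsPGroup p P)
    (hPne : P ≠ ⊥) : ∃ z ∈ P.map (QuotientGroup.mk' (der P)), z ^ p = 1 ∧ z ≠ 1 := by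
  classical
  have := Fintype.ofFinite N
  have hnil : Group.IsNilpotent P := hP.isNilpotent
  have h1 : (commutator P).index ≠ 1 := by
    intro h
    rw [Subgroup.index_eq_one] at h
    have h2 := SolvableStructure.AbelianSocle.eq_top_of_sup_commutator (X := P) (K := ⊥)
      (by rw [h]; simp)
    have hnt : Nontrivial P := (Subgroup.nontrivial_iff_ne_bot P).2 hPne
    exact bot_ne_top h2
  have h2 : p ∣ Nat.card (P.map (QuotientGroup.mk' (der P))) := by
    obtain ⟨n, hn⟩ := IsPGroup.iff_card.1 (hP.map (QuotientGroup.mk' (der P)))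
    rw [hn]
    rcases n with _ | n
    · rw [card_quot, pow_zero] at hn
      exact absurd hn h1
    · exact dvd_pow_self p (Nat.succ_ne_zero n)
  obtain ⟨y, hy⟩ := exists_prime_orderOf_dvd_card' p h2
  refine ⟨y, y.2, ?_, ?_⟩
  · have : y ^ p = 1 := by rw [← hy, pow_orderOf_eq_one]
    exact congrArg Subtype.val this
  · intro h
    have h3 : y = 1 := Subtype.ext h
    rw [h3, orderOf_one] at hy
    exact hp.out.one_lt.ne hy

include hP hc hK' hTI in
/-- **The main inequality**. -/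
theorem bound (hE : ExistsK.{u}) (hPne : P ≠ ⊥) (S : Set (IrrCharacter G)) {M : Ideal AlgInt}
    (hM : IsPModular p M)
    (hS : ∀ χ ∈ S, ∀ ψ ∈ S, ∀ x : N, x ∈ Subgroup.centralizer (P : Set N) →
      MemLocalIdeal M ((χ : G → ℂ) x * (ψ : G → ℂ) 1 - (ψ : G → ℂ) x * (χ : G → ℂ) 1))
    (hS1 : ∀ χ ∈ S, ¬ MemLocalIdeal M ((χ : G → ℂ) 1)) :
    Nat.card S ≤ (commutator P).index := by
  classical
  have hprime := isPrime_of_isPModular hM
  have hfin : Finite (IrrCharacter G) := finite_irr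
  have := Fintype.ofFinite (IrrCharacter G)
  have := Fintype.ofFinite (N ⧸ der P)
  rcases S.eq_empty_or_nonempty with hS0 | ⟨χ₀, hχ₀⟩
  · rw [hS0]
    simp
  have hAn : (P.map (QuotientGroup.mk' (der P))).Normal :=
    Subgroup.Normal.map inferInstance _ (QuotientGroup.mk'_surjective (der P))
  have hKQ : ¬ p ∣ Nat.card (K'.map (QuotientGroup.mk' (der P))) :=
    fun h => hK' (h.trans (Subgroup.card_map_dvd _ _))
  obtain ⟨z, hzA, hz, hz1⟩ := exists_z (p := p) P hP hPne
  obtain ⟨κ, D⟩ := exists_kapOn hE p _ (P.map (QuotientGroup.mk' (der P)))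
    (K'.map (QuotientGroup.mk' (der P))) le_rfl (hP.map _) hKQ
  obtain ⟨H, hH⟩ : ∃ H, H = K'.map (QuotientGroup.mk' (der P)) ⊓
    Subgroup.centralizer ({z} : Set (N ⧸ der P)) := ⟨_, rfl⟩
  have := Fintype.ofFinite H
  have hHK : H ≤ K'.map (QuotientGroup.mk' (der P)) := hH ▸ inf_le_left
  have hHz : ∀ h ∈ H, h * z = z * h := fun h hh =>
    Subgroup.mem_centralizer_singleton_iff.1 (hH ▸ hh : h ∈ K'.map (QuotientGroup.mk' (der P)) ⊓
      Subgroup.centralizer ({z} : Set (N ⧸ der P))).2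
  have hHp : ¬ p ∣ Nat.card H := fun h => hKQ (h.trans (Subgroup.card_dvd_of_le hHK))
  have hH0 : (Nat.card H : ℂ) ≠ 0 := by exact_mod_cast Nat.card_pos.ne'
  -- the subgroup `L`
  obtain ⟨L, hLdef⟩ : ∃ L : Subgroup N, L = K' ⊓ H.comap (QuotientGroup.mk' (der P)) ⊓
    Subgroup.centralizer (P : Set N) := ⟨_, rfl⟩
  have := Fintype.ofFinite L
  have hLH : ∀ l ∈ L, QuotientGroup.mk' (der P) l ∈ H := fun l hl => (hLdef ▸ hl : l ∈ K' ⊓
    H.comap (QuotientGroup.mk' (der P)) ⊓ Subgroup.centralizer (P : Set N)).1.2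
  have hLK : ∀ l ∈ L, l ∈ K' := fun l hl => (hLdef ▸ hl : l ∈ K' ⊓
    H.comap (QuotientGroup.mk' (der P)) ⊓ Subgroup.centralizer (P : Set N)).1.1
  have hLC : ∀ l ∈ L, l ∈ Subgroup.centralizer (P : Set N) := fun l hl => (hLdef ▸ hl : l ∈ K' ⊓
    H.comap (QuotientGroup.mk' (der P)) ⊓ Subgroup.centralizer (P : Set N)).2
  let f : L →* H :=
    { toFun := fun l => ⟨QuotientGroup.mk' (der P) l, hLH l l.2⟩
      map_one' := Subtype.ext (map_one _)
      map_mul' := fun a b => Subtype.ext (map_mul _ _ _) }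
  have hf : Function.Injective f := by
    rw [injective_iff_map_eq_one]
    intro l hl
    have h1 : QuotientGroup.mk' (der P) (l : N) = 1 := congrArg Subtype.val hl
    have h2 : (l : N) ∈ P := der_le P ((QuotientGroup.eq_one_iff (l : N)).1 h1)
    exact Subtype.ext (Subgroup.disjoint_def.1 hc.disjoint h2 (hLK l l.2))
  have hval : ∀ (χ : IrrCharacter G) (x : G), MemLocalRing M ((χ : G → ℂ) x) := fun χ x => by
    obtain ⟨n, ρ, -, h⟩ := χ.2
    rw [← h]
    exact memLocalRing_of_isIntegral (Characters.AverageRoots.isIntegral_character ρ x)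
  obtain ⟨φ, hφ⟩ := exists_phi hM hHp f hf (fun l => (χ₀ : G → ℂ) l) (hS1 χ₀ hχ₀)
    (fun l => hval χ₀ l)
  have hφval : ∀ h : H, MemLocalRing M (conj ((φ : H → ℂ) h)) := fun h => by
    have h1 := isIrr_conj φ.2
    obtain ⟨n, ρ, -, e⟩ := h1
    have e1 : conj ((φ : H → ℂ) h) = ρ.character h := (congrFun e h).symm
    rw [e1]
    exact memLocalRing_of_isIntegral (Characters.AverageRoots.isIntegral_character ρ h)
  -- nonvanishing for all `χ ∈ S`
  have hne : ∀ χ ∈ S, ¬ MemLocalIdeal M (∑ l : L, conj ((φ : H → ℂ) (f l)) * (χ : G → ℂ) l) := by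
    intro χ hχ h
    have h1 : MemLocalIdeal M ((∑ l : L, conj ((φ : H → ℂ) (f l)) * (χ : G → ℂ) l) * (χ₀ : G → ℂ) 1 -
        (∑ l : L, conj ((φ : H → ℂ) (f l)) * (χ₀ : G → ℂ) l) * (χ : G → ℂ) 1) := by
      rw [Finset.sum_mul, Finset.sum_mul, ← Finset.sum_sub_distrib]
      refine memLocalIdeal_sum fun l _ => ?_
      have h2 := hS χ hχ χ₀ hχ₀ l (hLC l l.2)
      have h3 := memLocalIdeal_mul_left (hφval (f l)) h2
      convert h3 using 1
      ring
    have h2 : MemLocalIdeal M ((∑ l : L, conj ((φ : H → ℂ) (f l)) * (χ₀ : G → ℂ) l) * (χ : G → ℂ) 1) := by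
      have h3 := memLocalIdeal_sub (memLocalIdeal_mul_right h (hval χ₀ 1)) h1
      rwa [sub_sub_cancel] at h3
    rcases memLocalIdeal_or_of_mul (memLocalRing_sum fun l _ => memLocalRing_mul (hφval (f l))
      (hval χ₀ l)) (hval χ 1) h2 with h3 | h3
    · exact hφ h3
    · exact hS1 χ hχ h3
  -- the rows
  have hres : ∀ χ : IrrCharacter G, IsGeneralizedCharacter N (fun n : N => (χ : G → ℂ) n) :=
    fun χ => gen_restrict N (gen_of_irr χ.2)
  choose m hm hmM using fun χ : IrrCharacter G => exists_row D hz hHK hHz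
    (defl_gen (der P) (hres χ)) (isIrr_isCharacter φ.2)
  have hnd : ∀ χ ∈ S, ¬ (p : ℤ) ∣ ∑ k, m χ k := by
    intro χ hχ hdvd
    apply hne χ hχ
    have h1 := hmM χ M hM
    -- the sum over `h ∈ H` centralizing `A` is the sum over `L`
    have h2 : (∑ h : H, if (h : N ⧸ der P) ∈ Subgroup.centralizer
        (P.map (QuotientGroup.mk' (der P)) : Set (N ⧸ der P)) then
          conj ((φ : H → ℂ) h) * defl (der P) (fun n : N => (χ : G → ℂ) n) h else 0) =
        ∑ l : L, conj ((φ : H → ℂ) (f l)) *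
          defl (der P) (fun n : N => (χ : G → ℂ) n) (QuotientGroup.mk' (der P) l) := by
      rw [← Finset.sum_filter]
      symm
      refine Finset.sum_bij (fun l _ => f l) ?_ ?_ ?_ ?_
      · intro l _
        rw [Finset.mem_filter]
        refine ⟨mem_univ _, ?_⟩
        rw [Subgroup.mem_centralizer_iff]
        rintro _ ⟨x, hx, rfl⟩
        change QuotientGroup.mk' (der P) x * QuotientGroup.mk' (der P) l =
          QuotientGroup.mk' (der P) l * QuotientGroup.mk' (der P) x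
        rw [← map_mul, Subgroup.mem_centralizer_iff.1 (hLC l l.2) x hx, map_mul]
      · intro a _ b _ h
        exact hf h
      · intro h hh
        rw [Finset.mem_filter] at hh
        obtain ⟨k, hk, hk'⟩ := hHK h.2
        have hko : ¬ p ∣ orderOf k := fun h => hK' (h.trans (by
          have := orderOf_dvd_natCard (⟨k, hk⟩ : K')
          rwa [← Subgroup.orderOf_coe] at this))
        have hkC := centralize P hP hko (by rw [hk']; exact hh.2)
        have hkL : k ∈ L := by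
          rw [hLdef]
          refine ⟨⟨hk, ?_⟩, hkC⟩
          change QuotientGroup.mk' (der P) k ∈ H
          rw [hk']
          exact h.2
        exact ⟨⟨k, hkL⟩, mem_univ _, Subtype.ext hk'⟩
      · intro l _
        rfl
    have hL : ∀ l ∈ L, ∀ x ∈ P, x * l = l * x := fun l hl x hx =>
      Subgroup.mem_centralizer_iff.1 (hLC l hl) x hx
    obtain ⟨n, hn⟩ := sum_congr_mod P hP L hL (hres χ) (isCharacter_comp f (isIrr_isCharacter φ.2))
    -- everything lies in the local ideal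
    have h3 : MemLocalIdeal M ((Nat.card H : ℂ) * ((∑ k, m χ k : ℤ) : ℂ) -
        ∑ l : L, conj ((φ : H → ℂ) (f l)) *
          defl (der P) (fun n : N => (χ : G → ℂ) n) (QuotientGroup.mk' (der P) l)) := by
      rw [← h2]
      obtain ⟨α, hα, e⟩ := h1
      have h4 := memLocalIdeal_of_mem hα
      rw [e] at h4
      exact h4
    have h4 : MemLocalIdeal M ((Nat.card H : ℂ) * ((∑ k, m χ k : ℤ) : ℂ)) :=
      memLocalIdeal_mul_left (memLocalRing_natCast _) ((memLocalIdeal_intCast_iff hM _).2 hdvd)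
    have h5 := memLocalIdeal_sub h4 h3
    rw [sub_sub_cancel] at h5
    have h6 : MemLocalIdeal M ((p : ℂ) * n) :=
      memLocalIdeal_mul_right (memLocalIdeal_p hM) (memLocalRing_intCast n)
    rw [← hn] at h6
    simp only [Function.comp_apply] at h6
    have h7 := memLocalIdeal_add h6 h5
    rwa [sub_add_cancel] at h7
  -- the count
  have hp1 : (0 : ℝ) < (p : ℝ) - 1 := by
    have : (1 : ℝ) < p := by exact_mod_cast hp.out.one_lt
    linarith
  have hpars : ∀ a : ZMod p, a ≠ 0 → ∑ χ : IrrCharacter G,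
      ‖∑ k : ZMod p, (ZMod.stdAddChar (a * k) : ℂ) * (m χ k : ℂ)‖ ^ 2 =
        ((commutator P).index : ℝ) := by
    intro a ha
    have hcl : IsClassFunction H (fun h => κ a ⟨h, hHK h.2⟩ * conj ((φ : H → ℂ) h)) := by
      intro h k
      have h1 : IsClassFunction (K'.map (QuotientGroup.mk' (der P))) (κ a) :=
        H688.KGV.UI.isClassFunction D.uint ha
      have h2 := h1 ⟨h, hHK h.2⟩ ⟨k, hHK k.2⟩
      have h3 := isIrr_isClassFunction φ.2 h k
      change κ a (⟨k, hHK k.2⟩ * ⟨h, hHK h.2⟩ * ⟨k, hHK k.2⟩⁻¹) *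
        conj ((φ : H → ℂ) (k * h * k⁻¹)) = _
      rw [h2, h3]
    have h1 := row_parseval N P hP K' hc hK' hTI hzA hz hz1 hH
      (fun h => κ a ⟨h, hHK h.2⟩ * conj ((φ : H → ℂ) h)) hcl ha
    have h2 : ∀ χ : IrrCharacter G, (Nat.card H : ℂ)⁻¹ * ∑ h : H,
        κ a ⟨h, hHK h.2⟩ * conj ((φ : H → ℂ) h) *
          defl (der P) (fun n : N => (χ : G → ℂ) n) (z ^ a.val * h) =
        ∑ k : ZMod p, (ZMod.stdAddChar (a * k) : ℂ) * (m χ k : ℂ) := fun χ => hm χ a ha
    rw [Finset.sum_congr rfl fun χ _ => by rw [h2 χ]] at h1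
    have h3 : ∀ h : H, (Nat.card ↥(P.map (QuotientGroup.mk' (der P)) ⊓
        Subgroup.centralizer ({(h : N ⧸ der P)} : Set (N ⧸ der P))) : ℂ) *
        (‖κ a ⟨h, hHK h.2⟩ * conj ((φ : H → ℂ) h)‖ : ℂ) ^ 2 =
        ((commutator P).index : ℂ) * ((φ : H → ℂ) h * conj ((φ : H → ℂ) h)) := by
      intro h
      have h4 := D.norm a ha ⟨h, hHK h.2⟩
      rw [card_quot] at h4
      have h5 : ((‖κ a ⟨h, hHK h.2⟩‖ : ℂ)) ^ 2 * (Nat.card ↥(P.map (QuotientGroup.mk' (der P)) ⊓
        Subgroup.centralizer ({(h : N ⧸ der P)} : Set (N ⧸ der P))) : ℂ) =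
          ((commutator P).index : ℂ) := by exact_mod_cast h4
      rw [norm_mul, Complex.norm_conj, Complex.mul_conj', ← h5]
      push_cast
      ring
    rw [Finset.sum_congr rfl fun h _ => h3 h, ← Finset.mul_sum] at h1
    have h6 : (Nat.card H : ℂ)⁻¹ * ∑ h : H, (φ : H → ℂ) h * conj ((φ : H → ℂ) h) = 1 :=
      classInner_irr_self φ.2
    have h7 : ∑ χ : IrrCharacter G,
        ((‖∑ k : ZMod p, (ZMod.stdAddChar (a * k) : ℂ) * (m χ k : ℂ)‖ : ℂ)) ^ 2 =
        ((commutator P).index : ℂ) := by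
      rw [h1, mul_left_comm, h6, mul_one]
    exact_mod_cast h7
  have htot : ∑ χ : IrrCharacter G, ∑ a ∈ (univ : Finset (ZMod p)).erase 0,
      ‖∑ k : ZMod p, (ZMod.stdAddChar (a * k) : ℂ) * (m χ k : ℂ)‖ ^ 2 =
        ((p : ℝ) - 1) * ((commutator P).index : ℝ) := by
    rw [Finset.sum_comm, Finset.sum_congr rfl fun a ha => hpars a (Finset.ne_of_mem_erase ha),
      Finset.sum_const, Finset.card_erase_of_mem (Finset.mem_univ _), Finset.card_univ, ZMod.card,
      nsmul_eq_mul, Nat.cast_sub hp.out.one_le, Nat.cast_one]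
  have hge : ∀ χ ∈ S, (p : ℝ) - 1 ≤ ∑ a ∈ (univ : Finset (ZMod p)).erase 0,
      ‖∑ k : ZMod p, (ZMod.stdAddChar (a * k) : ℂ) * (m χ k : ℂ)‖ ^ 2 := by
    intro χ hχ
    rw [H991.KGV.parseval']
    exact_mod_cast (H991.KGV.arith (m χ) (hnd χ hχ)).1
  have hle : (Nat.card S : ℝ) * ((p : ℝ) - 1) ≤ ((p : ℝ) - 1) * ((commutator P).index : ℝ) := by
    rw [← htot]
    have h1 : (Nat.card S : ℝ) * ((p : ℝ) - 1) =
        ∑ _χ ∈ univ.filter (fun χ : IrrCharacter G => χ ∈ S), ((p : ℝ) - 1) := by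
      rw [Finset.sum_const, nsmul_eq_mul]
      congr 2
      rw [← Fintype.card_subtype, ← Nat.card_eq_fintype_card]
    rw [h1]
    calc ∑ _χ ∈ univ.filter (fun χ : IrrCharacter G => χ ∈ S), ((p : ℝ) - 1)
        ≤ ∑ χ ∈ univ.filter (fun χ : IrrCharacter G => χ ∈ S),
            ∑ a ∈ (univ : Finset (ZMod p)).erase 0,
              ‖∑ k : ZMod p, (ZMod.stdAddChar (a * k) : ℂ) * (m χ k : ℂ)‖ ^ 2 :=
          Finset.sum_le_sum fun χ hχ => hge χ (Finset.mem_filter.1 hχ).2
      _ ≤ _ := Finset.sum_le_sum_of_subset_of_nonneg (Finset.filter_subset _ _) fun χ _ _ =>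
          Finset.sum_nonneg fun a _ => by positivity
  rw [mul_comm] at hle
  exact_mod_cast le_of_mul_le_mul_left hle hp1

end Main

end Cfsg.Agent.H591.TI
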